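/-
A group with a regular normal elementary abelian subgroup of order 16 and a central element of
order three in the point stabiliser consists of affine maps of the plane over the field with four
elements.
-/
import Cfsg.Agent.H9.SmallIso

set_option autoImplicit false

namespace Cfsg.Agent.TA4

open H9 QuadraticAlgebra

theorem f4_smul {V : Type*} [AddCommGroup V] [Module F4 V] (T : V →+ V)
    (hT : ∀ x, T ((ω : F4) • x) = (ω : F4) • T x) (c : F4) (x : V) : T (c • x) = c • T x := by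
  have : c = 0 ∨ c = 1 ∨ c = ω ∨ c = 1 + ω := by revert c; decide
  rcases this with rfl | rfl | rfl | rfl <;> simp [add_smul, hT]

theorem exists_f4 {A : Type*} [AddCommGroup A] [Finite A] (k : A →+ A) (h2 : ∀ x : A, 2 • x = 0)
    (hk : ∀ x, k (k x) = x + k x) (hc : Nat.card A = 16) :
    ∃ e : A ≃+ (Fin 2 → F4), ∀ x, e (k x) = (ω : F4) • e x := by
  let _ : Module (ZMod 2) A := AddCommGroup.zmodModule h2
  let φ : F4 →ₐ[ZMod 2] Module.End (ZMod 2) A :=
    QuadraticAlgebra.lift ⟨k.toZModLinearMap 2, LinearMap.ext fun x => by simp [hk]⟩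
  let _ : Module F4 A := Module.compHom A φ.toRingHom
  have hω : ∀ x : A, (ω : F4) • x = k x := fun x => by
    change φ ω x = k x
    simp [φ]
  have : Module.Finite F4 A := Module.Finite.of_finite
  have hr : Module.finrank F4 A = 2 := by
    have := Module.natCard_eq_pow_finrank (K := F4) (V := A)
    rw [hc, Nat.card_eq_fintype_card, card_F4] at this
    exact (Nat.pow_right_injective (by norm_num : 2 ≤ 4) (show 4 ^ 2 = _ from this)).symm
  let e : A ≃ₗ[F4] (Fin 2 → F4) := LinearEquiv.ofFinrankEq _ _ (by simp [hr])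
  exact ⟨e.toAddEquiv, fun x => by rw [← hω]; exact e.map_smul _ _⟩

theorem finite_card_aff : Finite ((Fin 2 → F4) ≃ᵃ[F4] (Fin 2 → F4)) ∧
    Nat.card ((Fin 2 → F4) ≃ᵃ[F4] (Fin 2 → F4)) ≤ 2880 := by
  let E : GL (Fin 2) F4 ≃* ((Fin 2 → F4) ≃ₗ[F4] (Fin 2 → F4)) :=
    Matrix.GeneralLinearGroup.toLin.trans (LinearMap.GeneralLinearGroup.generalLinearEquiv _ _)
  let j : ((Fin 2 → F4) ≃ᵃ[F4] (Fin 2 → F4)) → (Fin 2 → F4) × GL (Fin 2) F4 :=
    fun f => (f 0, E.symm f.linear)
  have hj : Function.Injective j := fun f g e => by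
    obtain ⟨e1, e2⟩ := Prod.mk.inj e
    have e3 := E.symm.injective e2
    refine AffineEquiv.ext fun x => ?_
    have h1 := f.map_vadd 0 x
    have h2 := g.map_vadd 0 x
    rw [vadd_eq_add, add_zero] at h1 h2
    rw [h1, h2, e1, e3]
  refine ⟨Finite.of_injective j hj, (Nat.card_le_card_of_injective j hj).trans ?_⟩
  rw [Nat.card_prod, Matrix.card_GL_field, Nat.card_eq_fintype_card, Fintype.card_fun, card_F4]
  simp [Fin.prod_univ_two]

theorem aff_of_scalar {G Ω : Type*} [Group G] [MulAction G Ω] [Finite G]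
    (faith : ∀ g : G, (∀ c : Ω, g • c = c) → g = 1) {R : Subgroup G} [hR : R.Normal]
    (tr : ∀ x y : Ω, ∃ r ∈ R, r • x = y) (reg : ∀ x : Ω, ∀ r ∈ R, r • x = x → r = 1)
    (sq : ∀ r ∈ R, r * r = 1) (comm : ∀ r ∈ R, ∀ s ∈ R, r * s = s * r) (hc : Nat.card R = 16)
    (hG : Nat.card G = 2880) {a : Ω} {w : G} (wa : w • a = a) (w3 : w * w * w = 1)
    (wf : ∀ c : Ω, w • c = c → c = a) (wc : ∀ x : G, x • a = a → x * w = w * x) :
    Nonempty (G ≃* ((Fin 2 → F4) ≃ᵃ[F4] (Fin 2 → F4))) := by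
  let _ : CommGroup R := { (inferInstance : Group R) with
    mul_comm := fun x y => Subtype.ext (comm _ x.2 _ y.2) }
  let κ : G → Additive R ≃+ Additive R := fun g => MulEquiv.toAdditive (MulAut.conjNormal g)
  have hκ : ∀ g (r : Additive R), ((κ g r).toMul : G) = g * r.toMul * g⁻¹ := fun g r => rfl
  have ext : ∀ r s : Additive R, (r.toMul : G) = s.toMul → r = s := fun r s e =>
    Additive.toMul.injective (Subtype.ext e)
  have h2 : ∀ x : Additive R, x + x = 0 := fun x => ext _ _ (sq _ x.toMul.2)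
  have hk : ∀ x, κ w (κ w x) = x + κ w x := fun x => by
    have h3 : κ w (κ w (κ w x)) = x := ext _ _ (by
      rw [hκ, hκ, hκ, show ∀ y : G, w * (w * (w * y * w⁻¹) * w⁻¹) * w⁻¹ =
        w * w * w * y * (w * w * w)⁻¹ from fun y => by group, w3]
      simp)
    set y := x + κ w x + κ w (κ w x) with hy
    have h4 : κ w y = y := by rw [hy, map_add, map_add, h3]; abel
    have h5 : w * y.toMul = y.toMul * w := mul_inv_eq_iff_eq_mul.1 (by rw [← hκ, h4])
    have h6 : y = 0 := ext _ _ (reg a _ y.toMul.2 (wf _ (by rw [← mul_smul, h5, mul_smul, wa])))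
    rw [← add_zero (x + κ w x), ← h2 (κ w (κ w x)), ← add_assoc, ← hy, h6, zero_add]
  obtain ⟨e, he⟩ := exists_f4 (κ w).toAddMonoidHom (fun x => by rw [two_nsmul, h2]) hk hc
  have hb : Function.Bijective fun r : Additive R => (r.toMul : G) • a := by
    refine ⟨fun r s h => ext _ _ (inv_mul_eq_one.1 (reg a _
      (R.mul_mem (R.inv_mem r.toMul.2) s.toMul.2) ?_)), fun c => ?_⟩
    · rw [mul_smul, inv_smul_eq_iff]; exact h.symm
    · obtain ⟨r, hr, h⟩ := tr a c
      exact ⟨Additive.ofMul ⟨r, hr⟩, h⟩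
  let ψ : Ω ≃ (Fin 2 → F4) := (Equiv.ofBijective _ hb).symm.trans e.toEquiv
  have hψ0 : ∀ r : Additive R, ψ ((r.toMul : G) • a) = e r := fun r =>
    congrArg e ((Equiv.ofBijective _ hb).symm_apply_apply r)
  have hψ : ∀ (r : Additive R) (c : Ω), ψ ((r.toMul : G) • c) = e r + ψ c := fun r c => by
    obtain ⟨s, rfl⟩ := hb.2 c
    rw [hψ0, ← map_add, ← hψ0, ← mul_smul]
    rfl
  let ρ : G →* Equiv.Perm (Fin 2 → F4) :=
    ψ.permCongrHom.toMonoidHom.comp (MulAction.toPermHom G Ω)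
  have hρ : ∀ g c, ρ g (ψ c) = ψ (g • c) := fun g c => by simp [ρ]
  have ρi : Function.Injective ρ := (injective_iff_map_eq_one ρ).2 fun g hg =>
    faith g fun c => ψ.injective (by rw [← hρ, hg]; rfl)
  let τ : ((Fin 2 → F4) ≃ᵃ[F4] (Fin 2 → F4)) →* Equiv.Perm (Fin 2 → F4) :=
    { toFun := AffineEquiv.toEquiv, map_one' := rfl, map_mul' := fun _ _ => rfl }
  have τi : Function.Injective τ := AffineEquiv.toEquiv_injective
  have le : ρ.range ≤ τ.range := by
    rintro _ ⟨g, rfl⟩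
    have cw : ∀ r, κ g (κ w r) = κ w (κ g r) := fun r => ext _ _ (by
      obtain ⟨s, hs, h⟩ := tr a (g • a)
      have h1 := wc (s⁻¹ * g) (by rw [mul_smul, inv_smul_eq_iff, h])
      have h3 : ∀ y ∈ R, g * y * g⁻¹ = s⁻¹ * g * y * (s⁻¹ * g)⁻¹ := fun y hy => by
        rw [show s⁻¹ * g * y * (s⁻¹ * g)⁻¹ = s⁻¹ * (g * y * g⁻¹ * s) by group,
          comm _ (hR.conj_mem y hy g) s hs, inv_mul_cancel_left]
      rw [hκ, hκ, hκ, hκ, h3 _ (hR.conj_mem _ r.toMul.2 w), h3 _ r.toMul.2]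
      generalize s⁻¹ * g = x at h1
      rw [show ∀ y : G, x * (w * y * w⁻¹) * x⁻¹ = x * w * y * (x * w)⁻¹ from fun y => by group, h1]
      group)
    let T : (Fin 2 → F4) ≃+ (Fin 2 → F4) := (e.symm.trans (κ g)).trans e
    have hT : ∀ r, T (e r) = e (κ g r) := fun r => by simp [T]
    refine ⟨⟨ρ g, T.toLinearEquiv (f4_smul T.toAddMonoidHom fun x => ?_), fun p v => ?_⟩, rfl⟩
    · obtain ⟨r, rfl⟩ := e.surjective x
      change T (_ • e r) = _ • T (e r)
      rw [← he, hT, hT, ← he]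
      exact congrArg e (cw r)
    · obtain ⟨r, rfl⟩ := e.surjective v
      obtain ⟨c, rfl⟩ := ψ.surjective p
      change ρ g (e r + ψ c) = T (e r) + ρ g (ψ c)
      rw [← hψ, hρ, hρ, hT, ← hψ, hκ, smul_smul, smul_smul, inv_mul_cancel_right]
  obtain ⟨hf, hca⟩ := finite_card_aff
  have eq : ρ.range = τ.range := Subgroup.eq_of_le_of_card_ge le (by
    rw [← Nat.card_congr (MonoidHom.ofInjective ρi).toEquiv,
      ← Nat.card_congr (MonoidHom.ofInjective τi).toEquiv, hG]
    exact hca)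
  exact ⟨((MonoidHom.ofInjective ρi).trans (MulEquiv.subgroupCongr eq)).trans
    (MonoidHom.ofInjective τi).symm⟩

end Cfsg.Agent.TA4
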